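import Cfsg.Agent.H0.MWD4.D
import Cfsg.Agent.H0.TCWD42.Main
import Cfsg.Agent.H0.TCWD41.Main
import Cfsg.Agent.H0.TCWD40.Main
set_option maxRecDepth 100000
set_option Elab.async false
set_option linter.unusedSectionVars false
namespace H0.MWD4
open H0 BN 
theorem rels : ∀ r ∈ B, ev R.p r = 1 := all_take_done (all_take_step (all_take_zero _ B) (rels_of_relsW R c0)) (by decide +kernel)
theorem defs_ok : DefsOK R.p defs 9 := defsOK_of_chk c1
variable {G : Type} [Group G] (P : Pres G 9 B)
noncomputable def m : Model G := P.model defs R rels (by decide +kernel) defs_ok R_ge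
include P
theorem mR : (m P).R = R := rfl
theorem g_eq {x : ℕ} (h : x < 9) : (m P).g x = P.g x := extG_out defs P.g 9 (Or.inl h)
theorem top : gen (m P).g (lets 9) = ⊤ := (gen_extG defs P.g 9 (by decide)).trans P.top
theorem grel : ∀ r ∈ B, ev (m P).g r = 1 := rels_extG defs 9 (by decide +kernel) P.rel
theorem hi : ∀ x < 9, (m P).g x * (m P).g (inv x) = 1 := inv_of_invChk (grel P) (by decide +kernel)
theorem upper : Finite G ∧ Nat.card G ≤ 192 := card_of_top (top P) ((chain_step (σ := [[0], [1], [2], [3], [4], [5], [6], [7], [8]]) (n := 8) H0.TCWD40.main rfl rfl (rels_of_consChk (grel P) 9 inv (by decide +kernel)) (chain_step (σ := [[4], [5], [6], [7], [8]]) (n := 6) H0.TCWD41.main rfl rfl (rels_of_consChk (grel P) 9 inv (by decide +kernel)) (chain_step (σ := [[7], [8]]) (n := 4) H0.TCWD42.main rfl rfl (rels_of_consChk (grel P) 9 inv (by decide +kernel)) (chain_start _)))).imp_right fun h => h.trans (by decide +kernel))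
theorem fin : Finite G := (upper P).1
theorem card_base : Nat.card G = 192 ∧ (m P).pst [4, 2, 0] = ⊥ :=
  haveI := fin P
  (m P).card_done ((m P).card_step (lo := 4) (d := 4) (Model.via _ (mR P) (fun R => Model.fixW R [2, 0] [[7], [8]]) c6) ((m P).inOrb_grow [0, 1] ((m P).inOrb_self _ 4) (Model.via _ (mR P) (fun R => Model.growW R [[7], [8]] [0, 1] (Nat.pow 2 4) (ival 4 4)) c7)) (Model.via _ (mR P) (fun R => Nat.ble (4 + 4) R.N) (by decide +kernel)) ((m P).card_step (lo := 2) (d := 6) (Model.via _ (mR P) (fun R => Model.fixW R [0] [[4], [5]]) c4) ((m P).inOrb_grow [0, 1, 1] ((m P).inOrb_self _ 2) (Model.via _ (mR P) (fun R => Model.growW R [[4], [5]] [0, 1, 1] (Nat.pow 2 2) (ival 2 6)) c5)) (Model.via _ (mR P) (fun R => Nat.ble (2 + 6) R.N) (by decide +kernel)) ((m P).card_step (lo := 0) (d := 8) (Model.via _ (mR P) (fun R => Model.fixW R [] [[0], [2]]) c2) ((m P).inOrb_grow [0, 1, 0, 1] ((m P).inOrb_self _ 0) (Model.via _ (mR P) (fun R => Model.growW R [[0], [2]] [0, 1, 0, 1] (Nat.pow 2 0)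 (ival 0 8)) c3)) (Model.via _ (mR P) (fun R => Nat.ble (0 + 8) R.N) (by decide +kernel)) ((m P).card_start)))) (upper P).2 (by decide +kernel)
theorem card : Nat.card G = 192 := (card_base P).1
theorem base : (m P).pst [4, 2, 0] = ⊥ := (card_base P).2
theorem inj : Function.Injective (m P).φ := (m P).inj_of_base (base P)
end H0.MWD4
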