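import Cfsg.Agent.H0.PG2
set_option maxRecDepth 100000
set_option Elab.async false
set_option linter.unusedSectionVars false
namespace H0.MWD4
open H0 BN 
noncomputable def n0 : Net := (Net.cons (nat_lit 4) (nat_lit 0x3) (Net.cons (nat_lit 2) (nat_lit 0x33) (Net.cons (nat_lit 1) (nat_lit 0x41) Net.nil)))
noncomputable def n1 : Net := (Net.cons (nat_lit 4) (nat_lit 0xc) (Net.cons (nat_lit 2) (nat_lit 0x33) (Net.cons (nat_lit 1) (nat_lit 0x5) Net.nil)))
noncomputable def n2 : Net := (Net.cons (nat_lit 4) (nat_lit 0xc) (Net.cons (nat_lit 2) (nat_lit 0x30) (Net.cons (nat_lit 1) (nat_lit 0x11) Net.nil)))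
noncomputable def n3 : Net := (Net.cons (nat_lit 2) (nat_lit 0x30) (Net.cons (nat_lit 1) (nat_lit 0x41) (Net.cons (nat_lit 4) (nat_lit 0xc) Net.nil)))
noncomputable def n4 : Net := (Net.cons (nat_lit 4) (nat_lit 0xc) (Net.cons (nat_lit 2) (nat_lit 0x30) (Net.cons (nat_lit 1) (nat_lit 0x50) (Net.cons (nat_lit 4) (nat_lit 0xc) Net.nil))))
noncomputable def n5 : Net := (Net.cons (nat_lit 4) (nat_lit 0xc) (Net.cons (nat_lit 2) (nat_lit 0x30) (Net.cons (nat_lit 1) (nat_lit 0x44) Net.nil)))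
noncomputable def n6 : Net := (Net.cons (nat_lit 2) (nat_lit 0x30) (Net.cons (nat_lit 1) (nat_lit 0x14) (Net.cons (nat_lit 4) (nat_lit 0xc) Net.nil)))
noncomputable def n7 : Net := (Net.cons (nat_lit 2) (nat_lit 0x30) Net.nil)
noncomputable def n8 : Net := (Net.cons (nat_lit 1) (nat_lit 0x50) Net.nil)
def B : List (List ℕ) := [[0, 1], [1, 0], [2, 3], [3, 2], [4, 4], [5, 6], [6, 5], [7, 7], [8, 8], [7, 8, 7, 8], [7, 8, 7, 8], [5, 5, 5], [6, 4, 5, 7], [4, 6, 4, 6, 8], [4, 5, 4, 5, 4, 5, 4, 5], [4, 5, 4, 6, 4, 5, 4, 6, 4, 5, 4, 6], [4, 6, 4, 6, 4, 6, 4, 6], [0, 0, 0, 0], [2, 2, 2, 2, 2, 2], [3, 1, 2, 0, 0, 4], [3, 3, 6], [0, 2, 0, 2, 0, 2, 0, 2], [0, 2, 1, 3, 0, 2, 1, 3, 0, 2, 1, 3, 0, 2, 1, 3, 0, 2, 1, 3, 0, 2, 1, 3], [0, 3, 0, 3, 0, 3, 0, 3], [2, 7, 3, 4], [0, 4, 1, 8, 7], [1, 3, 1, 8, 6]]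
def inv (x : ℕ) : ℕ := [1, 0, 3, 2, 4, 6, 5, 7, 8].getD x 0
noncomputable def nl : List Net := [n0, n1, n2, n3, n4, n5, n6, n7, n8]
theorem nl_ok : allL (Net.ok (nat_lit 8)) nl = true := by decide +kernel
noncomputable def R : Rep := mkRep (nat_lit 3) (nat_lit 8) nl (by decide +kernel) nl_ok
def defs : List (List ℕ) := []
theorem R_ge : ∀ x, 9 + defs.length ≤ x → R.p x = 1 := fun _ hx => mkRep_ge hx
theorem c0 : relsW R 0 R.lg ((B.drop 0).take 27) = true := by decide +kernel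
theorem c1 : defsChk R defs 9 = true := by decide +kernel
theorem c2 : Model.fixW R [] [[0], [2]] = true := by decide +kernel
theorem c3 : Model.growW R [[0], [2]] [0, 1, 0, 1] (Nat.pow 2 0) (ival 0 8) = true := by decide +kernel
theorem c4 : Model.fixW R [0] [[4], [5]] = true := by decide +kernel
theorem c5 : Model.growW R [[4], [5]] [0, 1, 1] (Nat.pow 2 2) (ival 2 6) = true := by decide +kernel
theorem c6 : Model.fixW R [2, 0] [[7], [8]] = true := by decide +kernel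
theorem c7 : Model.growW R [[7], [8]] [0, 1] (Nat.pow 2 4) (ival 4 4) = true := by decide +kernel
end H0.MWD4
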